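import Mathlib
import Cfsg.Prelude.Def_Classical
import Cfsg.Agent.Lib.Unitary.Order
import Cfsg.Agent.Lib.TwoModels.QuatIso

/-! The group `PSU 3 F 2` of order 72: normal `3^2` with quaternion quotient.
Matrices are computed in the four element model `K` and pushed into `F`. -/
set_option autoImplicit false

namespace CfsgLib.Unitary.PSU32
open scoped Matrix
open CfsgLib.Unitary.Basic CfsgLib.Unitary.FieldNorm CfsgLib.Unitary.Order

abbrev K := QuadraticAlgebra (ZMod 2) 1 1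

instance kFintype : Fintype K :=
  Fintype.ofEquiv (ZMod 2 × ZMod 2)
    ⟨fun p => ⟨p.1, p.2⟩, fun z => (z.re, z.im), fun _ => rfl, fun _ => rfl⟩

def w : K := ⟨0, 1⟩
def md : Matrix (Fin 3) (Fin 3) K := !![1, 0, 0; 0, w, 0; 0, 0, w * w]
def mc : Matrix (Fin 3) (Fin 3) K := !![0, 1, 0; 0, 0, 1; 1, 0, 0]
def ma : Matrix (Fin 3) (Fin 3) K := !![1, 1, 1; 1, w, w * w; 1, w * w, w]
def mb : Matrix (Fin 3) (Fin 3) K := !![1, 1, w * w; 1, w, w; w, 1, w]

/-- `mb * ma ^ i` -/
def mp : Fin 4 → Matrix (Fin 3) (Fin 3) K :=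
  ![mb, !![w * w, 1, w * w; 1, w * w, w * w; 1, 1, w], !![1, w * w, 1; 1, w, w; w, w, 1],
    !![w * w, w * w, 1; 1, w * w, w * w; 1, w, 1]]

def det3 (M : Matrix (Fin 3) (Fin 3) K) : K :=
  M 0 0 * M 1 1 * M 2 2 - M 0 0 * M 1 2 * M 2 1 - M 0 1 * M 1 0 * M 2 2 + M 0 1 * M 1 2 * M 2 0 +
    M 0 2 * M 1 0 * M 2 1 - M 0 2 * M 1 1 * M 2 0

/-- scalar test -/
def Sc (M : Matrix (Fin 3) (Fin 3) K) : Prop := M = M 0 0 • 1

instance scDecidable (M : Matrix (Fin 3) (Fin 3) K) : Decidable (Sc M) := by unfold Sc; infer_instance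

theorem good_u : md.transpose * md.map (fun x => x * x) = 1 ∧ mc.transpose * mc.map (fun x => x * x) = 1 ∧
    ma.transpose * ma.map (fun x => x * x) = 1 ∧ mb.transpose * mb.map (fun x => x * x) = 1 := by decide +kernel

theorem good_d : det3 md = 1 ∧ det3 mc = 1 ∧ det3 ma = 1 ∧ det3 mb = 1 := by decide +kernel

theorem good (M : Matrix (Fin 3) (Fin 3) K) (h : M ∈ [md, mc, ma, mb]) :
    M.transpose * M.map (fun x => x * x) = 1 ∧ M.det = 1 := by
  obtain ⟨u1, u2, u3, u4⟩ := good_u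
  obtain ⟨d1, d2, d3, d4⟩ := good_d
  rw [Matrix.det_fin_three]
  rcases h with _ | ⟨_, _ | ⟨_, _ | ⟨_, _ | ⟨_, h⟩⟩⟩⟩
  · exact ⟨u1, d1⟩
  · exact ⟨u2, d2⟩
  · exact ⟨u3, d3⟩
  · exact ⟨u4, d4⟩
  · exact nomatch h

theorem mp_eq : ∀ i : Fin 4, mb * ma ^ i.val = mp i := by decide +kernel

theorem rels : md * md * md = 1 ∧ mc * mc * mc = 1 ∧ Sc (md * mc * (md * md) * (mc * mc)) ∧
    ma * ma * ma * ma = 1 ∧ mb * mb * mb * mb = 1 ∧
    ma * md = mc * ma ∧ ma * mc = md * md * ma ∧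
    mb * mb = md * md * (ma * ma) ∧ mb * ma = (w * w) • (mc * (ma * ma * ma) * mb) := by decide +kernel

theorem nonscalar : ¬ Sc md ∧ ¬ Sc mc ∧ (¬ Sc (mc * md)) ∧ (¬ Sc (mc * (md * md))) ∧ ¬ Sc ma ∧ ¬ Sc (ma * ma) ∧
    (∀ i : Fin 4, ∀ j : Fin 3, ∀ k : Fin 3, ¬ Sc (mp i * (md ^ j.val * mc ^ k.val))) := by decide +kernel

variable {F : Type*} [Field F] [Fintype F]

theorem two_eq_zero (hF : Fintype.card F = 4) : (2 : F) = 0 := by
  have h : ((4 : ℕ) : F) = 0 := hF ▸ FiniteField.cast_card_eq_zero F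
  have : (2 : F) * 2 = 0 := by norm_num at h ⊢; exact h
  exact mul_self_eq_zero.1 this

theorem exists_hom (hF : Fintype.card F = 4) : ∃ f : K →+* F, Function.Injective f := by
  haveI : CharP F 2 := CharTwo.of_one_ne_zero_of_two_eq_zero one_ne_zero (two_eq_zero hF)
  letI := ZMod.algebra F 2
  classical
  obtain ⟨u, hu⟩ : ∃ u : F, u ≠ 0 ∧ u ≠ 1 := by
    by_contra h
    push Not at h
    have hle : (Finset.univ : Finset F).card ≤ ({0, 1} : Finset F).card :=
      Finset.card_le_card fun x _ => by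
        simp only [Finset.mem_insert, Finset.mem_singleton]
        exact or_iff_not_imp_left.2 (h x)
    rw [Finset.card_univ, hF] at hle
    exact absurd (hle.trans Finset.card_le_two) (by norm_num)
  have hu2 : u * u = (1 : ZMod 2) • 1 + (1 : ZMod 2) • u := by
    have h3 : u ^ 3 = 1 := by
      have := FiniteField.pow_card_sub_one_eq_one u hu.1
      rwa [hF] at this
    rw [one_smul, one_smul]
    have h : (u - 1) * (u * u + u + 1) = 0 := by linear_combination h3
    linear_combination (mul_eq_zero.1 h).resolve_left (sub_ne_zero.2 hu.2) - (u + 1) * two_eq_zero hF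
  let φ := QuadraticAlgebra.lift ⟨u, hu2⟩
  refine ⟨φ.toRingHom, ?_⟩
  have hval : ∀ a b : ZMod 2, φ ⟨a, b⟩ = a • 1 + b • u := fun a b => rfl
  rw [injective_iff_map_eq_zero]
  rintro ⟨a, b⟩ h
  replace h : a • (1 : F) + b • u = 0 := (hval a b).symm.trans h
  fin_cases a <;> fin_cases b
  · rfl
  · change (0 : ZMod 2) • (1 : F) + (1 : ZMod 2) • u = 0 at h
    rw [zero_smul, one_smul, zero_add] at h
    exact absurd h hu.1
  · change (1 : ZMod 2) • (1 : F) + (0 : ZMod 2) • u = 0 at h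
    rw [zero_smul, one_smul, add_zero] at h
    exact absurd h one_ne_zero
  · change (1 : ZMod 2) • (1 : F) + (1 : ZMod 2) • u = 0 at h
    rw [one_smul, one_smul] at h
    exact absurd (show u = 1 by linear_combination h - two_eq_zero hF) hu.2

theorem card_PSU (hF : Fintype.card F = 4) : Nat.card (Cfsg.PSU 3 F 2) = 72 := by
  have h1 := card_SU_mul (n := 3) (q := 2) (F := F) (by rw [hF]; rfl) (by norm_num)
  rw [card_GU (by rw [hF]; rfl)] at h1
  have h2 := card_center_SU (n := 3) (q := 2) (F := F) (by rw [hF]; rfl) (by norm_num)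
  have h3 := Subgroup.card_eq_card_quotient_mul_card_subgroup (Subgroup.center (Cfsg.SU 3 F 2))
  rw [h2] at h3
  simp [Finset.prod_range_succ] at h1 h3
  show Nat.card (Cfsg.SU 3 F 2 ⧸ Subgroup.center (Cfsg.SU 3 F 2)) = 72
  omega

theorem mem_SU {f : K →+* F} (hF : Fintype.card F = 4) {M : Matrix (Fin 3) (Fin 3) K}
    (hM : M.transpose * M.map (fun x => x * x) = 1) (x y : Fin 3 → F) :
    Cfsg.hermForm 3 F 2 (M.map f *ᵥ x) (M.map f *ᵥ y) = Cfsg.hermForm 3 F 2 x y := by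
  have e : (M.map f).transpose * (M.map f).map (fun z => z ^ 2) = 1 := by
    have := congrArg (fun A : Matrix (Fin 3) (Fin 3) K => A.map f) hM
    simp only [Matrix.map_mul, Matrix.map_one f f.map_zero f.map_one, Matrix.transpose_map] at this
    rw [← this]
    congr 1
    ext i j
    simp [sq]
  have h2 := two_eq_zero hF
  have hq : ∀ z : Fin 3 → F, (fun i => (M.map f *ᵥ z) i ^ 2) = (M.map f).map (fun t => t ^ 2) *ᵥ fun i => z i ^ 2 := by
    intro z
    funext i
    simp only [Matrix.mulVec, dotProduct, Matrix.map_apply, Fin.sum_univ_three]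
    linear_combination (f (M i 0) * z 0 * (f (M i 1) * z 1) + f (M i 0) * z 0 * (f (M i 2) * z 2) + f (M i 1) * z 1 * (f (M i 2) * z 2)) * h2
  change (M.map f *ᵥ x) ⬝ᵥ (fun i => (M.map f *ᵥ y) i ^ 2) = x ⬝ᵥ fun i => y i ^ 2
  rw [hq, Matrix.dotProduct_mulVec, ← Matrix.vecMul_transpose, Matrix.vecMul_vecMul, e,
    Matrix.vecMul_one]

theorem structure_72 (hF : Fintype.card F = 4) : ∃ (N : Subgroup (Cfsg.PSU 3 F 2)) (_ : N.Normal),
    Nat.card N = 9 ∧ (∀ x ∈ N, x ^ 3 = 1) ∧ Nonempty (Cfsg.PSU 3 F 2 ⧸ N ≃* QuaternionGroup 2) := by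
  classical
  have hF' : Fintype.card F = 2 ^ 2 := by rw [hF]; rfl
  obtain ⟨f, hf⟩ := exists_hom hF
  let S : Subgroup (Matrix.SpecialLinearGroup (Fin 3) F) := Cfsg.SU 3 F 2
  have mkS : ∀ M ∈ [md, mc, ma, mb], ∃ s : Cfsg.SU 3 F 2, s.1.1 = M.map f := fun M hM =>
    ⟨⟨⟨M.map f, by rw [← RingHom.mapMatrix_apply, ← RingHom.map_det, (good M hM).2, map_one]⟩,
      mem_SU hF (good M hM).1⟩, rfl⟩
  obtain ⟨sd, hsd⟩ := mkS md (by simp)
  obtain ⟨sc, hsc⟩ := mkS mc (by simp)
  obtain ⟨sa, hsa⟩ := mkS ma (by simp)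
  obtain ⟨sb, hsb⟩ := mkS mb (by simp)
  let g := QuotientGroup.mk' (Subgroup.center (Cfsg.SU 3 F 2))
  -- `Rel s M` : the element `s` has matrix `M.map f`
  let Rel : Cfsg.SU 3 F 2 → Matrix (Fin 3) (Fin 3) K → Prop := fun s M => s.1.1 = M.map f
  have rmul : ∀ {s t M N}, Rel s M → Rel t N → Rel (s * t) (M * N) := by
    intro s t M N hs ht
    show (s * t).1.1 = _
    rw [Matrix.map_mul, ← hs, ← ht]
    rfl
  have rone : Rel 1 1 := (Matrix.map_one f f.map_zero f.map_one).symm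
  have rpow : ∀ {s M}, Rel s M → ∀ n : ℕ, Rel (s ^ n) (M ^ n) := by
    intro s M hs n
    induction n with
    | zero => rw [pow_zero, pow_zero]; exact rone
    | succ n ih => rw [pow_succ, pow_succ]; exact rmul ih hs
  have req : ∀ {s t M}, Rel s M → Rel t M → s = t := by
    intro s t M hs ht
    exact Subtype.ext (Subtype.ext (hs.trans ht.symm))
  have rsmul : ∀ {s t M} {k : K}, Rel s (k • M) → Rel t M → g s = g t := by
    intro s t M k hs ht
    rw [QuotientGroup.mk'_eq_mk']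
    refine ⟨s⁻¹ * t, ?_, mul_inv_cancel_left _ _⟩
    have hk : k ≠ 0 := by
      rintro rfl
      have hdet : s.1.1.det = 1 := s.1.2
      rw [show s.1.1 = _ from hs, zero_smul, Matrix.map_zero _ f.map_zero, Matrix.det_zero] at hdet
      · exact zero_ne_one hdet
    have hsm : s.1.1 = f k • t.1.1 := by
      rw [show s.1.1 = _ from hs, show t.1.1 = _ from ht]
      ext i j; simp
    have hfk : f k ≠ 0 := fun h => hk (hf (h.trans f.map_zero.symm))
    refine Subgroup.mem_center_iff.2 fun x => ?_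
    have hst : (s⁻¹ * t).1.1 = (f k)⁻¹ • (1 : Matrix (Fin 3) (Fin 3) F) := by
      have h : (s⁻¹ * s).1.1 = f k • (s⁻¹ * t).1.1 := by
        show (s⁻¹).1.1 * s.1.1 = f k • ((s⁻¹).1.1 * t.1.1)
        rw [hsm, Matrix.mul_smul]
      rw [inv_mul_cancel] at h
      rw [← inv_smul_smul₀ hfk (s⁻¹ * t).1.1, ← h]
      rfl
    refine Subtype.ext (Subtype.ext ?_)
    show x.1.1 * (s⁻¹ * t).1.1 = (s⁻¹ * t).1.1 * x.1.1
    rw [hst, Matrix.mul_smul, Matrix.smul_mul, mul_one, one_mul]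
  have rsc : ∀ {s M}, Rel s M → g s = 1 → Sc M := by
    intro s M hs h1
    obtain ⟨c, hc⟩ := center_scalar hF' (by norm_num) s ((QuotientGroup.eq_one_iff _).1 h1)
    rw [show s.1.1 = _ from hs] at hc
    have e : ∀ i j, f (M i j) = if i = j then c else 0 := fun i j => by
      have := congrFun (congrFun hc i) j
      simpa [Matrix.one_apply] using this
    show M = M 0 0 • 1
    refine Matrix.ext fun i j => hf ?_
    rw [e i j, Matrix.smul_apply, Matrix.one_apply]
    split <;> simp [e 0 0]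
  have rsc' : ∀ {s M}, Rel s M → Sc M → g s = 1 := by
    intro s M hs hM
    rw [show M = M 0 0 • 1 from hM] at hs
    rw [rsmul hs rone, map_one]
  obtain ⟨r1, r2, r3, r4, r5, r6, r7, r8, r9⟩ := rels
  obtain ⟨n1, n2, n3, n4, n5, n6, n7⟩ := nonscalar
  haveI : Fact (Nat.Prime 3) := ⟨Nat.prime_three⟩
  set d := g sd with hd
  set c := g sc with hc
  set a := g sa with ha
  set b := g sb with hb
  have od : orderOf d = 3 := orderOf_eq_prime (by
    rw [hd, ← map_pow, rsc' (rpow hsd 3) (by rw [pow_succ, pow_two, r1]; decide +kernel)]) fun h => n1 (rsc hsd h)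
  have oc : orderOf c = 3 := orderOf_eq_prime (by
    rw [hc, ← map_pow, rsc' (rpow hsc 3) (by rw [pow_succ, pow_two, r2]; decide +kernel)]) fun h => n2 (rsc hsc h)
  have hd3' : d ^ 3 = 1 := by have := pow_orderOf_eq_one d; rwa [od] at this
  have hc3' : c ^ 3 = 1 := by have := pow_orderOf_eq_one c; rwa [oc] at this
  have hd3 : d * d * d = 1 := by rw [← pow_three']; exact hd3'
  have hc3 : c * c * c = 1 := by rw [← pow_three']; exact hc3'
  have comm : Commute d c := by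
    have h : d * c * (d * d) * (c * c) = 1 := by
      simp only [hd, hc, ← map_mul]
      exact rsc' (rmul (rmul (rmul hsd hsc) (rmul hsd hsd)) (rmul hsc hsc)) r3
    show d * c = c * d
    calc d * c = d * c * (d * d * d) := by rw [hd3, mul_one]
    _ = d * c * (d * d) * (c * c) * (c * d) := by
        simp only [mul_assoc]
        rw [← mul_assoc c c d, ← mul_assoc c (c * c) d, ← mul_assoc c c c, hc3, one_mul]
    _ = c * d := by rw [h, one_mul]
  have hcz : ∀ (x : Subgroup.zpowers d) (y : Subgroup.zpowers c), Commute (x : Cfsg.PSU 3 F 2) y := by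
    rintro ⟨_, i, rfl⟩ ⟨_, j, rfl⟩
    exact comm.zpow_zpow i j
  let ψ := MonoidHom.noncommCoprod (Subgroup.zpowers d).subtype (Subgroup.zpowers c).subtype hcz
  have hcd : c ∉ Subgroup.zpowers d := by
    intro h
    obtain ⟨k, hk, hk'⟩ : ∃ k : ℕ, k < 3 ∧ d ^ k = c := by
      obtain ⟨k, hk⟩ := (isOfFinOrder_of_finite d).mem_powers_iff_mem_zpowers.2 h
      exact ⟨k % 3, Nat.mod_lt _ (by norm_num), by have h3 : d ^ orderOf d = 1 := pow_orderOf_eq_one d; rw [od] at h3; rw [← pow_eq_pow_mod k h3]; exact hk⟩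
    interval_cases k
    · rw [pow_zero] at hk'; rw [← hk', orderOf_one] at oc; norm_num at oc
    · apply n4
      refine rsc (rmul hsc (rmul hsd hsd)) ?_
      rw [map_mul, map_mul, ← hc, ← hd, ← hk', pow_one, ← mul_assoc, hd3]
    · apply n3
      refine rsc (rmul hsc hsd) ?_
      rw [map_mul, ← hc, ← hd, ← hk', pow_two, hd3]
  have hdis : Subgroup.zpowers d ⊓ Subgroup.zpowers c = ⊥ := by
    have hpc : (Nat.card (Subgroup.zpowers c)).Prime := by rw [Nat.card_zpowers, oc]; exact Nat.prime_three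
    haveI := Fact.mk hpc
    rcases Subgroup.eq_bot_or_eq_top_of_prime_card ((Subgroup.zpowers d ⊓ Subgroup.zpowers c).subgroupOf (Subgroup.zpowers c)) with h | h
    · rw [Subgroup.subgroupOf_eq_bot] at h
      rw [← h.eq_bot, inf_assoc, inf_idem]
    · rw [Subgroup.subgroupOf_eq_top] at h
      exact absurd (h (Subgroup.mem_zpowers c)).1 hcd
  have hψ : Function.Injective ψ := by
    rw [injective_iff_map_eq_one]
    rintro ⟨⟨x, hx⟩, ⟨y, hy⟩⟩ h
    replace h : x * y = 1 := h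
    have hx' : x = y⁻¹ := eq_inv_of_mul_eq_one_left h
    have : x ∈ (⊥ : Subgroup (Cfsg.PSU 3 F 2)) := by
      rw [← hdis]
      exact ⟨hx, by rw [hx']; exact (Subgroup.zpowers c).inv_mem hy⟩
    rw [Subgroup.mem_bot] at this
    subst this
    rw [one_mul] at h
    subst h
    rfl
  set N := ψ.range with hN
  have hN9 : Nat.card N = 9 := by
    rw [hN, ← Nat.card_congr (MonoidHom.ofInjective hψ).toEquiv, Nat.card_prod, Nat.card_zpowers, Nat.card_zpowers, od, oc]
  have hN3 : ∀ x ∈ N, x ^ 3 = 1 := by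
    rintro _ ⟨⟨⟨_, i, rfl⟩, ⟨_, j, rfl⟩⟩, rfl⟩
    show (d ^ i * c ^ j) ^ 3 = 1
    rw [(comm.zpow_zpow i j).mul_pow, ← zpow_natCast (d ^ i), ← zpow_natCast (c ^ j), ← zpow_mul, ← zpow_mul, mul_comm i,
      mul_comm j, zpow_mul, zpow_mul, zpow_natCast, zpow_natCast]
    rw [hd3', hc3', one_zpow, one_zpow, one_mul]
  have hdN : d ∈ N := ⟨(⟨d, Subgroup.mem_zpowers d⟩, 1), mul_one _⟩
  have hcN : c ∈ N := ⟨(1, ⟨c, Subgroup.mem_zpowers c⟩), one_mul _⟩
  have had : a * d = c * a := by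
    simp only [ha, hd, hc, ← map_mul]
    rw [req (rmul hsa hsd) (show Rel (sc * sa) _ from r6 ▸ rmul hsc hsa)]
  have hac : a * c = d * d * a := by
    simp only [ha, hd, hc, ← map_mul]
    rw [req (rmul hsa hsc) (show Rel (sd * sd * sa) _ from r7 ▸ rmul (rmul hsd hsd) hsa)]
  have haN : a ∈ Subgroup.normalizer (N : Set (Cfsg.PSU 3 F 2)) := by
    have hle : N.map (MulAut.conj a).toMonoidHom ≤ N := by
      rintro _ ⟨_, ⟨⟨⟨_, i, rfl⟩, ⟨_, j, rfl⟩⟩, rfl⟩, rfl⟩
      show MulAut.conj a (d ^ i * c ^ j) ∈ N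
      rw [map_mul, map_zpow, map_zpow, MulAut.conj_apply, MulAut.conj_apply, had, hac, mul_inv_cancel_right,
        mul_inv_cancel_right]
      exact mul_mem (zpow_mem hcN i) (zpow_mem (mul_mem hdN hdN) j)
    have heq : N.map (MulAut.conj a).toMonoidHom = N :=
      Subgroup.eq_of_le_of_card_ge hle (by rw [Subgroup.card_map_of_injective (MulAut.conj a).injective])
    refine Subgroup.mem_normalizer_iff.2 fun x => ⟨fun h => ?_, fun h => ?_⟩
    · exact hle ⟨x, h, rfl⟩
    · rw [← heq] at h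
      obtain ⟨y, hy, hyx⟩ := h
      rwa [← (MulAut.conj a).injective (hyx : MulAut.conj a y = MulAut.conj a x)]
  haveI : Fact (Nat.Prime 2) := ⟨Nat.prime_two⟩
  have oa : orderOf a = 4 := orderOf_eq_prime_pow (p := 2) (n := 1) (fun h => n6 (rsc (rmul hsa hsa) (by
      rw [map_mul, ← ha]; rwa [pow_one, pow_two] at h))) (by
    rw [ha, ← map_pow, rsc' (rpow hsa _) (by rw [show (2:ℕ) ^ (1 + 1) = 4 from rfl, pow_succ, pow_three', r4]; decide +kernel)])
  have h72 := card_PSU (F := F) hF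
  haveI : Finite (Cfsg.PSU 3 F 2) := inferInstance
  let P := Subgroup.normalizer (N : Set (Cfsg.PSU 3 F 2))
  have hnorm : N.Normal := by
    have d9 : 9 ∣ Nat.card P := hN9 ▸ Subgroup.card_dvd_of_le Subgroup.le_normalizer
    have d4 : 4 ∣ Nat.card P := oa ▸ Subgroup.orderOf_dvd_natCard P haN
    have d36 : 36 ∣ Nat.card P := Nat.Coprime.mul_dvd_of_dvd_of_dvd (by norm_num : Nat.Coprime 4 9) d4 d9
    have hcard := Subgroup.card_mul_index P
    rw [h72] at hcard
    have hidx : P.index ≤ 2 := by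
      obtain ⟨k, hk⟩ := d36
      rw [hk] at hcard
      rcases Nat.eq_zero_or_pos k with rfl | hk0
      · simp at hcard
      · nlinarith
    let T : Sylow 3 (Cfsg.PSU 3 F 2) := Sylow.ofCard N (by
      rw [hN9, h72, show 72 = 2 ^ 3 * 3 ^ 2 by norm_num, Nat.factorization_mul (by norm_num) (by norm_num),
        Nat.Prime.factorization_pow Nat.prime_two, Nat.Prime.factorization_pow Nat.prime_three]
      simp)
    have hns : Nat.card (Sylow 3 (Cfsg.PSU 3 F 2)) = P.index := by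
      rw [Sylow.card_eq_index_normalizer T]
      rfl
    have hmod := card_sylow_modEq_one 3 (Cfsg.PSU 3 F 2)
    rw [hns] at hmod
    have : P.index = 1 := by
      have hne : P.index ≠ 0 := Subgroup.index_ne_zero_of_finite
      interval_cases h : P.index <;> simp_all [Nat.ModEq]
    exact Subgroup.normalizer_eq_top_iff.1 (Subgroup.index_eq_one.1 this)
  haveI := hnorm
  refine ⟨N, hnorm, hN9, hN3, ?_⟩
  let π := QuotientGroup.mk' N
  have h8 : Nat.card (Cfsg.PSU 3 F 2 ⧸ N) = 8 := by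
    have := Subgroup.card_eq_card_quotient_mul_card_subgroup N
    rw [h72, hN9] at this
    exact Nat.eq_of_mul_eq_mul_right (show 0 < 9 by norm_num) (this.symm.trans (by norm_num))
  have hπd : π d = 1 := (QuotientGroup.eq_one_iff _).2 hdN
  have hπc : π c = 1 := (QuotientGroup.eq_one_iff _).2 hcN
  have out : ∀ x : Cfsg.PSU 3 F 2, x ∈ N → ∃ j k : ℕ, j < 3 ∧ k < 3 ∧ x = d ^ j * c ^ k := by
    rintro _ ⟨⟨⟨x, hx⟩, ⟨y, hy⟩⟩, rfl⟩
    obtain ⟨j, rfl⟩ := (isOfFinOrder_of_finite d).mem_powers_iff_mem_zpowers.2 hx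
    obtain ⟨k, rfl⟩ := (isOfFinOrder_of_finite c).mem_powers_iff_mem_zpowers.2 hy
    refine ⟨j % 3, k % 3, Nat.mod_lt _ (by norm_num), Nat.mod_lt _ (by norm_num), ?_⟩
    rw [← pow_eq_pow_mod j hd3', ← pow_eq_pow_mod k hc3']
    rfl
  have oπa : orderOf (π a) = 4 := by
    refine orderOf_eq_prime_pow (p := 2) (n := 1) (fun h => ?_) ?_
    · rw [pow_one, ← map_pow] at h
      have h2 := hN3 _ ((QuotientGroup.eq_one_iff _).1 h)
      rw [← pow_mul] at h2
      have := orderOf_dvd_of_pow_eq_one h2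
      rw [oa] at this
      norm_num at this
    · rw [← map_pow, show (2:ℕ) ^ (1 + 1) = orderOf a from oa.symm, pow_orderOf_eq_one, map_one]
  refine CfsgLib.TwoModels.quaternion_iso (m := 2) (a := π a) (b := π b) oπa ?_ ?_ ?_ h8
  · intro h
    obtain ⟨i, hi⟩ := (isOfFinOrder_of_finite (π a)).mem_powers_iff_mem_zpowers.2 (inv_mem h)
    have hi' : π (a ^ (i % 4)) = (π b)⁻¹ := by rw [map_pow, ← oπa, pow_mod_orderOf]; exact hi
    have hmem : b * a ^ (i % 4) ∈ N := (QuotientGroup.eq_one_iff _).1 (by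
      show π (b * a ^ (i % 4)) = 1
      rw [map_mul, hi', mul_inv_cancel])
    obtain ⟨j, k, hj, hk, hx⟩ := out _ (inv_mem hmem)
    apply n7 ⟨i % 4, Nat.mod_lt _ (by norm_num)⟩ ⟨j, hj⟩ ⟨k, hk⟩
    have hr : Rel (sb * sa ^ (i % 4) * (sd ^ j * sc ^ k))
        (mp ⟨i % 4, Nat.mod_lt _ (by norm_num)⟩ * (md ^ j * mc ^ k)) := by
      rw [← mp_eq]
      exact rmul (rmul hsb (rpow hsa _)) (rmul (rpow hsd _) (rpow hsc _))
    refine rsc hr ?_
    simp only [map_mul, map_pow, ← ha, ← hb, ← hc, ← hd]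
    rw [← hx, mul_inv_cancel]
  · have h : b * b = d * d * (a * a) := by
      simp only [hb, hd, ha, ← map_mul]
      rw [req (rmul hsb hsb) (show Rel (sd * sd * (sa * sa)) _ from r8 ▸ rmul (rmul hsd hsd) (rmul hsa hsa))]
    rw [← map_mul, h, map_mul, map_mul, map_mul, hπd, pow_two]
    simp
  · have h : b * a = c * (a * a * a) * b := by
      simp only [hb, hc, ha, ← map_mul]
      exact rsmul (k := w * w) (r9 ▸ rmul hsb hsa) (rmul (rmul hsc (rmul (rmul hsa hsa) hsa)) hsb)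
    rw [mul_inv_eq_iff_eq_mul, ← map_mul, h, map_mul, map_mul, map_mul, map_mul, hπc, one_mul]
    congr 1
    refine (inv_eq_of_mul_eq_one_right ?_).symm
    rw [← mul_assoc, ← mul_assoc, ← pow_two, ← pow_succ, ← pow_succ, show 2 + 1 + 1 = orderOf (π a) from oπa.symm,
      pow_orderOf_eq_one]

end CfsgLib.Unitary.PSU32
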